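import Cfsg.Agent.H579.Pr.Cent

/-!
# 2-transitive groups of degree 11, 12, 15: no elements of order 3 with two cycles (helper579)
-/

set_option autoImplicit false

namespace Cfsg.Agent.H579.Pr

open MulAction Finset Subgroup

universe u v

variable {G : Type u} {Ω : Type v} [Group G] [MulAction G Ω] [Fintype Ω] [DecidableEq Ω]

theorem dvd_card_mv {x : G} {r : ℕ} (hr : r.Prime) (hx : orderOf x = r) : r ∣ #(mv Ω x) := by
  have hf : Fact r.Prime := ⟨hr⟩
  have h1 : (toPermHom G Ω x) ^ r ^ 1 = 1 := by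
    rw [pow_one, ← map_pow, ← hx, pow_orderOf_eq_one, map_one]
  have h2 := Equiv.Perm.card_compl_support_modEq h1
  rw [support_eq, card_compl] at h2
  have h3 : #(mv Ω x) ≤ Fintype.card Ω := card_le_univ _
  have h4 := (Nat.modEq_iff_dvd' (Nat.sub_le _ _)).1 h2
  rwa [Nat.sub_sub_self h3] at h4

/-- **Jordan**: 5-cycles -/
theorem alt_of_five [FaithfulSMul G Ω] (h2 : IsMultiplyPretransitive G Ω 2) {z : G} (hz : orderOf z = 5)
    (h5 : #(mv Ω z) = 5) (hn : 8 ≤ Fintype.card Ω) : alternatingGroup Ω ≤ (toPermHom G Ω).range := by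
  have hp : IsPreprimitive (toPermHom G Ω).range Ω := isPreprimitive_of_is_two_pretransitive (two_range h2)
  have hinj : Function.Injective (toPermHom G Ω) := toPerm_injective
  have h1 : orderOf (toPermHom G Ω z) = 5 := by rw [orderOf_injective _ hinj, hz]
  have h3 : (toPermHom G Ω z).IsCycle := by
    apply Equiv.Perm.isCycle_of_prime_order
    · rw [h1]; norm_num
    · rw [h1, support_eq, h5]; norm_num
  exact Cfsg.Agent.S0713.result _ hp (p := 5) (by norm_num) (by omega) (by omega) h3 (by rw [support_eq, h5]) ⟨z, rfl⟩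

variable (Ω) in
/-- the pointwise stabiliser of the support -/
def DD (x : G) : Subgroup G := fixingSubgroup G ((mv Ω x : Finset Ω) : Set Ω)

theorem mem_DD {x d : G} : d ∈ DD Ω x ↔ ∀ a ∈ mv Ω x, d • a = a := by
  rw [DD, mem_fixingSubgroup_iff]
  rfl

theorem mv_DD {x d : G} (hd : d ∈ DD Ω x) : mv Ω d ⊆ (mv Ω x)ᶜ := by
  intro a ha
  rw [mem_compl]
  intro hc
  exact (mem_mv.1 ha) (mem_DD.1 hd a hc)

/-- `|C(x)| ≤ 18 |D|` -/
theorem card_cent_le [Finite G] {x : G} (hx : orderOf x = 3) (hs : #(mv Ω x) = 6) :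
    Nat.card ↥(centralizer ({x} : Set G)) ≤ 18 * Nat.card ↥(DD Ω x) := by
  classical
  have := Fintype.ofFinite G
  have hx3 : x * x * x = 1 := by
    have h := pow_orderOf_eq_one x
    rw [hx] at h
    rw [← h, pow_three']
  set S := mv Ω x with hS
  have hdist : ∀ a ∈ S, x • a ≠ a ∧ x • x • a ≠ a ∧ x • x • a ≠ x • a := by
    intro a ha
    have h6 : x • a ≠ a := mem_mv.1 ha
    refine ⟨h6, ?_, ?_⟩
    · intro hc
      apply h6
      calc x • a = x • x • x • a := by rw [hc]
        _ = (x * x * x) • a := by rw [mul_smul, mul_smul]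
        _ = a := by rw [hx3, one_smul]
    · intro hc
      exact h6 (smul_left_cancel x hc)
  let cyc : Ω → Finset Ω := fun a => {a, x • a, x • x • a}
  have hcyc : ∀ a ∈ S, #(cyc a) = 3 := by
    intro a ha
    have h1 := hdist a ha
    rw [card_insert_of_notMem, card_insert_of_notMem, card_singleton]
    · rw [mem_singleton]; exact fun hc => h1.2.2 hc.symm
    · rw [mem_insert, mem_singleton]
      rintro (hc | hc)
      · exact h1.1 hc.symm
      · exact h1.2.1 hc.symm
  have hsub : ∀ a ∈ S, cyc a ⊆ S := by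
    intro a ha w hw
    simp only [cyc, mem_insert, mem_singleton] at hw
    rcases hw with rfl | rfl | rfl
    · exact ha
    · exact smul_mem_mv.2 ha
    · exact smul_mem_mv.2 (smul_mem_mv.2 ha)
  obtain ⟨a, ha⟩ : S.Nonempty := by rw [← card_pos, hs]; norm_num
  obtain ⟨b, hb⟩ : (S \ cyc a).Nonempty := by
    rw [← card_pos, card_sdiff_of_subset (hsub a ha), hs, hcyc a ha]
    norm_num
  rw [mem_sdiff] at hb
  have hxcyc : ∀ a w : Ω, x • w ∈ cyc a ↔ w ∈ cyc a := by
    intro a w
    have h0 : x • x • x • a = a := by rw [← mul_smul, ← mul_smul, hx3, one_smul]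
    simp only [cyc, mem_insert, mem_singleton]
    constructor
    · rintro (h | h | h)
      · right; right
        apply smul_left_cancel x
        rw [h0]; exact h
      · left
        exact smul_left_cancel x h
      · right; left
        exact smul_left_cancel x h
    · rintro (h | h | h)
      · right; left; rw [h]
      · right; right; rw [h]
      · left; rw [h, h0]
  have hcyc2 : ∀ u w : Ω, w ∈ cyc u → cyc w ⊆ cyc u := by
    intro u w hw z hz
    simp only [cyc, mem_insert, mem_singleton] at hz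
    rcases hz with rfl | rfl | rfl
    · exact hw
    · exact (hxcyc _ _).2 hw
    · exact (hxcyc _ _).2 ((hxcyc _ _).2 hw)
  have hall : cyc a ∪ cyc b = S := by
    apply Finset.eq_of_subset_of_card_le
    · exact union_subset (hsub a ha) (hsub b hb.1)
    · rw [card_union_of_disjoint, hcyc a ha, hcyc b hb.1, hs]
      rw [Finset.disjoint_left]
      intro w hw hwb
      apply hb.2
      have h1 := hcyc2 b w hwb
      have h3 : cyc w = cyc b := by
        apply Finset.eq_of_subset_of_card_le h1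
        rw [hcyc b hb.1, hcyc w (hsub b hb.1 hwb)]
      apply hcyc2 a w hw
      rw [h3]
      exact mem_insert_self _ _
  set t : Finset (Ω × Ω) := (S ×ˢ S).filter fun z => z.2 ∉ cyc z.1 with ht
  have htcard : #t = 18 := by
    have h1 : #t = ∑ u ∈ S, #{w ∈ S | w ∉ cyc u} := by
      rw [ht, card_filter, sum_product]
      refine Finset.sum_congr rfl fun u _ => ?_
      rw [card_filter]
    have h3 : ∀ u ∈ S, #{w ∈ S | w ∉ cyc u} = 3 := by
      intro u hu
      have h4 : S.filter (fun w => w ∉ cyc u) = S \ cyc u := by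
        ext w
        rw [mem_filter, mem_sdiff]
      rw [h4, card_sdiff_of_subset (hsub u hu), hs, hcyc u hu]
    rw [h1, Finset.sum_congr rfl h3, sum_const, hs]
    rfl
  have hcomm : ∀ (c : ↥(centralizer ({x} : Set G))) (w : Ω), x • (c : G) • w = (c : G) • x • w := by
    intro c w
    have h1 := mem_centralizer_singleton_iff.1 c.2
    rw [← mul_smul, ← mul_smul, h1]
  have hcS : ∀ (c : ↥(centralizer ({x} : Set G))) (w : Ω), w ∈ S → (c : G) • w ∈ S := by
    intro c w hw
    rw [hS, mem_mv, hcomm, Ne, smul_left_cancel_iff]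
    exact mem_mv.1 hw
  have hccyc : ∀ (c : ↥(centralizer ({x} : Set G))) (w u : Ω), (c : G) • w ∈ cyc ((c : G) • u) → w ∈ cyc u := by
    intro c w u h
    simp only [cyc, mem_insert, mem_singleton, hcomm, smul_left_cancel_iff] at h ⊢
    exact h
  have hmain := Finset.card_le_mul_card_image_of_maps_to (s := (univ : Finset ↥(centralizer ({x} : Set G)))) (t := t)
    (f := fun c : ↥(centralizer ({x} : Set G)) => ((c : G) • a, (c : G) • b)) (fun c _ => by
      rw [ht, mem_filter, mem_product]
      exact ⟨⟨hcS c a ha, hcS c b hb.1⟩, fun hc => hb.2 (hccyc c b a hc)⟩) (Nat.card ↥(DD Ω x)) (by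
      rintro ⟨u, w⟩ -
      rcases Finset.eq_empty_or_nonempty
        ((univ : Finset ↥(centralizer ({x} : Set G))).filter
          fun c : ↥(centralizer ({x} : Set G)) => ((c : G) • a, (c : G) • b) = (u, w)) with h0 | ⟨c0, hc0⟩
      · rw [h0, card_empty]; exact Nat.zero_le _
      · rw [mem_filter] at hc0
        have h1 := Prod.mk.injEq _ _ _ _ ▸ hc0.2
        have hfin : Fintype ↥(DD Ω x) := Fintype.ofFinite _
        rw [Nat.card_eq_fintype_card, ← Finset.card_univ]
        refine Finset.card_le_card_of_injOn (fun c => if h : (c0 : G)⁻¹ * c ∈ DD Ω x then ⟨_, h⟩ else 1)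
          (fun c _ => mem_univ _) ?_
        have key : ∀ c ∈ ((univ : Finset ↥(centralizer ({x} : Set G))).filter
            fun c : ↥(centralizer ({x} : Set G)) => ((c : G) • a, (c : G) • b) = (u, w)),
            (c0 : G)⁻¹ * c ∈ DD Ω x := by
          intro c hc
          rw [mem_filter] at hc
          have h3 := Prod.mk.injEq _ _ _ _ ▸ hc.2
          have h4 : ((c0 : G)⁻¹ * c) • a = a := by
            rw [mul_smul, inv_smul_eq_iff]; exact h3.1.trans h1.1.symm
          have h5 : ((c0 : G)⁻¹ * c) • b = b := by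
            rw [mul_smul, inv_smul_eq_iff]; exact h3.2.trans h1.2.symm
          have h6 : ∀ w : Ω, x • ((c0⁻¹ * c : ↥(centralizer ({x} : Set G))) : G) • w =
              ((c0⁻¹ * c : ↥(centralizer ({x} : Set G))) : G) • x • w := hcomm _
          have h7 : ((c0⁻¹ * c : ↥(centralizer ({x} : Set G))) : G) = (c0 : G)⁻¹ * c := rfl
          rw [h7] at h6
          rw [mem_DD]
          intro z hz
          have hz' : z ∈ cyc a ∪ cyc b := by rw [hall]; exact hz
          simp only [cyc, mem_union, mem_insert, mem_singleton] at hz'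
          rcases hz' with (rfl | rfl | rfl) | (rfl | rfl | rfl)
          · exact h4
          · rw [← h6, h4]
          · rw [← h6, ← h6, h4]
          · exact h5
          · rw [← h6, h5]
          · rw [← h6, ← h6, h5]
        intro c hc d hd hcd
        have h3 := key c hc
        have h4 := key d hd
        simp only [h3, h4, dite_true, Subtype.mk.injEq, mul_right_inj] at hcd
        exact Subtype.ext hcd)
  rw [Finset.card_univ, htcard, ← Nat.card_eq_fintype_card] at hmain
  rw [mul_comm]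
  exact hmain

/-- `|G| = n (n - 1) |G_{ab}|` -/
theorem card_stab_two [Finite G] (h2 : IsMultiplyPretransitive G Ω 2) {a b : Ω} (hab : a ≠ b) :
    Nat.card ↥(stabilizer G a ⊓ stabilizer G b) * (Fintype.card Ω * (Fintype.card Ω - 1)) = Nat.card G := by
  classical
  have := Fintype.ofFinite G
  rw [Nat.card_eq_fintype_card (α := G), ← card_two h2 hab hab]
  congr 1
  have e0 : Nat.card ↥(stabilizer G a ⊓ stabilizer G b) =
      #(((stabilizer G a ⊓ stabilizer G b : Subgroup G) : Set G).toFinset) := Nat.card_eq_card_toFinset _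
  rw [e0]
  congr 1
  ext h
  rw [Set.mem_toFinset, mem_filter]
  exact ⟨fun hh => ⟨mem_univ _, hh⟩, fun hh => hh.2⟩

/-- elements of prime order of `D` in degree at most 12 -/
theorem DD_prime [Finite G] [FaithfulSMul G Ω] (h2 : IsMultiplyPretransitive G Ω 2)
    (hA : ¬ alternatingGroup Ω ≤ (toPermHom G Ω).range) (h11 : 11 ≤ Fintype.card Ω)
    (h12 : Fintype.card Ω ≤ 12) {x : G} (hs : #(mv Ω x) = 6) {d : G} (hd : d ∈ DD Ω x) (hp : (orderOf d).Prime) :
    Fintype.card Ω = 12 ∧ mv Ω d = (mv Ω x)ᶜ ∧ #(mv Ω d) = 6 ∧ (orderOf d = 2 ∨ orderOf d = 3) := by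
  have := Fintype.ofFinite G
  have hd1 : d ≠ 1 := by
    rintro rfl
    rw [orderOf_one] at hp
    exact Nat.not_prime_one hp
  have h3 := card_le_card (mv_DD hd)
  rw [card_compl, hs] at h3
  have h4 := min_deg h2 hA hd1
  have h5 := dvd_card_mv (Ω := Ω) hp rfl
  have h6 : 5 ≤ #(mv Ω d) := by
    by_contra hc
    have h7 : (#(mv Ω d) - 1) ^ 2 ≤ 3 ^ 2 := Nat.pow_le_pow_left (by omega) 2
    omega
  have h7 : #(mv Ω d) ≠ 5 := by
    intro hc
    rw [hc] at h5
    apply hA
    exact alt_of_five h2 (((Nat.dvd_prime (by norm_num)).1 h5).resolve_left hp.one_lt.ne') hc (by omega)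
  have h8 : #(mv Ω d) = 6 := by omega
  have h9 : Fintype.card Ω = 12 := by omega
  refine ⟨h9, ?_, h8, ?_⟩
  · apply Finset.eq_of_subset_of_card_le (mv_DD hd)
    rw [card_compl, hs, h8, h9]
  · rw [h8] at h5
    have h10 : orderOf d ≤ 6 := Nat.le_of_dvd (by norm_num) h5
    interval_cases h : orderOf d
    · exact absurd hp (by norm_num)
    · exact absurd hp (by norm_num)
    · left; rfl
    · right; rfl
    · exact absurd h5 (by norm_num)
    · exact absurd h5 (by norm_num)
    · exact absurd hp (by norm_num)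

/-- **degree 11** -/
theorem no_eleven [Finite G] [FaithfulSMul G Ω] (h2 : IsMultiplyPretransitive G Ω 2)
    (hA : ¬ alternatingGroup Ω ≤ (toPermHom G Ω).range) (hn : Fintype.card Ω = 11) {x : G} (hx : orderOf x = 3)
    (hs : #(mv Ω x) = 6) : False := by
  have h1 := cent_le h2 x
  rw [card_compl, hn, hs] at h1
  have h3 := card_cent_le hx hs
  have h4 : Nat.card ↥(DD Ω x) = 1 := by
    by_contra hc
    obtain ⟨r, hr, hrd⟩ := Nat.exists_prime_and_dvd hc
    have := Fact.mk hr
    obtain ⟨d, hd⟩ := exists_prime_orderOf_dvd_card' r hrd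
    have h5 : orderOf (d : G) = r := by rw [Subgroup.orderOf_coe, hd]
    have h6 := DD_prime h2 hA (by omega) (by omega) hs d.2 (by rw [h5]; exact hr)
    omega
  rw [h4] at h3
  omega

/-- **degree 12**: `|C(x)| ≤ 54` -/
theorem card_cent_twelve [Finite G] [FaithfulSMul G Ω] (h2 : IsMultiplyPretransitive G Ω 2)
    (hA : ¬ alternatingGroup Ω ≤ (toPermHom G Ω).range) (hn : Fintype.card Ω = 12)
    (hsgn : ∀ g : G, Equiv.Perm.sign (toPermHom G Ω g) = 1) {x : G} (hx : orderOf x = 3)
    (hs : #(mv Ω x) = 6) : Nat.card ↥(centralizer ({x} : Set G)) ≤ 54 := by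
  have hinj : Function.Injective (toPermHom G Ω) := toPerm_injective
  have h3 := card_cent_le hx hs
  -- elements of prime order have order 3
  have hpr : ∀ d ∈ DD Ω x, (orderOf d).Prime → orderOf d = 3 ∧ mv Ω d = (mv Ω x)ᶜ := by
    intro d hd hp
    obtain ⟨-, h4, h5, h6 | h6⟩ := DD_prime h2 hA (by omega) (by omega) hs hd hp
    · exfalso
      have h7 := hsgn d
      have h8 : orderOf (toPermHom G Ω d) = 2 := by rw [orderOf_injective _ hinj, h6]
      obtain ⟨k, hk⟩ := Equiv.Perm.cycleType_prime_order (σ := toPermHom G Ω d) (by rw [h8]; norm_num)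
      have h9 := (toPermHom G Ω d).sum_cycleType
      rw [support_eq, h5, hk, h8, Multiset.sum_replicate, smul_eq_mul] at h9
      have h10 : k = 2 := by omega
      rw [Equiv.Perm.sign_of_cycleType, hk, h8, h10] at h7
      simp at h7
      exact absurd h7 (by decide)
    · exact ⟨h6, h4⟩
  have h4 : Nat.card ↥(DD Ω x) ≤ 6 := by
    obtain ⟨w, hw⟩ : ((mv Ω x)ᶜ).Nonempty := by
      rw [← card_pos, card_compl, hs, hn]
      norm_num
    have h5 : Function.Injective (fun d : ↥(DD Ω x) =>
        (⟨(d : G) • w, by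
          rw [mem_compl, mem_mv, not_not]
          rw [mem_compl] at hw
          by_contra hc
          have h6 : (d : G)⁻¹ • (d : G) • w = (d : G) • w :=
            mem_DD.1 (inv_mem d.2) _ (mem_mv.2 hc)
          rw [inv_smul_smul] at h6
          rw [← h6] at hc
          exact hw (mem_mv.2 hc)⟩ : ↥((mv Ω x)ᶜ))) := by
      intro d e hde
      have h6 : (d : G) • w = (e : G) • w := congrArg Subtype.val hde
      by_contra hne
      have h7 : d⁻¹ * e ≠ 1 := fun hc => hne (inv_mul_eq_one.1 hc)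
      obtain ⟨r, hr, hrd⟩ := Nat.exists_prime_and_dvd (fun hc => h7 (orderOf_eq_one_iff.1 hc) :
        orderOf (d⁻¹ * e) ≠ 1)
      obtain ⟨k, hk⟩ := hrd
      have h8 : orderOf ((d⁻¹ * e) ^ k) = r := by
        have hk0 : k ≠ 0 := by
          rintro rfl
          rw [mul_zero] at hk
          exact (orderOf_pos _).ne' hk
        rw [orderOf_pow_of_dvd hk0 ⟨r, by rw [hk, mul_comm]⟩, hk, Nat.mul_div_cancel _ (Nat.pos_of_ne_zero hk0)]
      have h9 : orderOf (((d⁻¹ * e) ^ k : ↥(DD Ω x)) : G) = r := by rw [Subgroup.orderOf_coe, h8]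
      have h10 := (hpr _ ((d⁻¹ * e) ^ k).2 (by rw [h9]; exact hr)).2
      have h11 : w ∈ mv Ω (((d⁻¹ * e) ^ k : ↥(DD Ω x)) : G) := by rw [h10]; exact hw
      apply mem_mv.1 h11
      have h12 : ((d⁻¹ * e : ↥(DD Ω x)) : G) • w = w := by
        show ((d : G)⁻¹ * e) • w = w
        rw [mul_smul, inv_smul_eq_iff, h6]
      have h13 : (((d⁻¹ * e) ^ k : ↥(DD Ω x)) : G) = ((d⁻¹ * e : ↥(DD Ω x)) : G) ^ k := rfl
      rw [h13]
      have h14 : ((d⁻¹ * e : ↥(DD Ω x)) : G) ∈ stabilizer G w := h12
      exact (stabilizer G w).pow_mem h14 k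
    have h6 := Nat.card_le_card_of_injective _ h5
    rw [Nat.card_eq_fintype_card (α := ↥((mv Ω x)ᶜ)), Fintype.card_coe, card_compl, hs, hn] at h6
    exact h6
  have h5 : IsPGroup 3 ↥(DD Ω x) := by
    rw [IsPGroup.iff_card]
    refine ⟨_, Nat.eq_prime_pow_of_unique_prime_dvd Nat.card_pos.ne' ?_⟩
    intro r hr hrd
    have := Fact.mk hr
    obtain ⟨d, hd⟩ := exists_prime_orderOf_dvd_card' r hrd
    have h5 : orderOf (d : G) = r := by rw [Subgroup.orderOf_coe, hd]
    have h6 := (hpr d d.2 (by rw [h5]; exact hr)).1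
    omega
  obtain ⟨k, hk⟩ := IsPGroup.iff_card.1 h5
  have h6 : k < 2 := by
    by_contra hc
    have : 3 ^ 2 ≤ 3 ^ k := Nat.pow_le_pow_right (by norm_num) (by omega)
    omega
  have h7 : Nat.card ↥(DD Ω x) ≤ 3 := by
    rw [hk]
    interval_cases k <;> norm_num
  omega

/-- the order of a Sylow subgroup -/
theorem card_sylow_eq {H : Type*} [Group H] [Finite H] {p : ℕ} [hf : Fact p.Prime] (P : Sylow p H) {k m : ℕ}
    (hH : Nat.card H = p ^ k * m) (hm : ¬ p ∣ m) : Nat.card P = p ^ k := by
  obtain ⟨j, hj⟩ := IsPGroup.iff_card.1 P.isPGroup'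
  have h1 := (P : Subgroup H).card_mul_index
  have h2 : ¬ p ∣ (P : Subgroup H).index := P.not_dvd_index
  apply Nat.dvd_antisymm
  · have h3 : Nat.card P ∣ p ^ k * m := ⟨_, by rw [← hH, h1]⟩
    refine (Nat.Coprime.dvd_mul_right ?_).1 h3
    change Nat.Coprime (Nat.card P) m
    rw [hj]
    exact Nat.Coprime.pow_left _ ((Nat.Prime.coprime_iff_not_dvd hf.out).2 hm)
  · have h3 : p ^ k ∣ Nat.card P * (P : Subgroup H).index := ⟨m, by rw [← hH]; exact h1⟩
    exact (Nat.Coprime.dvd_mul_right
      (Nat.Coprime.pow_left _ ((Nat.Prime.coprime_iff_not_dvd hf.out).2 h2))).1 h3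

/-- the number of the elements of order `p`, numerically -/
theorem card_orderOf_le' {H : Type*} [Group H] [Finite H] {p : ℕ} [hf : Fact p.Prime] {k m N : ℕ}
    (hH : Nat.card H = p ^ k * m) (hm : ¬ p ∣ m) (hN : ∀ c, c ∣ m → c % p = 1 % p → c * (p ^ k - 1) ≤ N) :
    Nat.card {y : H // orderOf y = p} ≤ N := by
  obtain ⟨P⟩ : Nonempty (Sylow p H) := inferInstance
  have h1 := card_orderOf_le P
  have h3 := card_sylow_eq P hH hm
  rw [h3] at h1
  refine h1.trans (hN _ ?_ ?_)
  · have h4 := P.card_dvd_index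
    have h5 := (P : Subgroup H).card_mul_index
    have h6 : Nat.card ↥(P : Subgroup H) = p ^ k := h3
    rw [h6, hH] at h5
    rwa [Nat.eq_of_mul_eq_mul_left (pow_pos hf.out.pos k) h5] at h4
  · exact card_sylow_modEq_one p H

/-- **degree 12**: orders `7920` and `95040` -/
theorem no_twelve [Finite G] [FaithfulSMul G Ω] (h2 : IsMultiplyPretransitive G Ω 2)
    (hA : ¬ alternatingGroup Ω ≤ (toPermHom G Ω).range) (hn : Fintype.card Ω = 12)
    (hsgn : ∀ g : G, Equiv.Perm.sign (toPermHom G Ω g) = 1) (hG : Nat.card G = 7920 ∨ Nat.card G = 95040)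
    {x : G} (hx : orderOf x = 3) (hs : #(mv Ω x) = 6) : False := by
  have h1 := card_cent_twelve h2 hA hn hsgn hx hs
  obtain ⟨a, b, hab⟩ : ∃ a b : Ω, a ≠ b := by
    have : Nontrivial Ω := Fintype.one_lt_card_iff_nontrivial.1 (by omega)
    exact exists_pair_ne Ω
  have h3 := cent_eq h2 hab x
  have h4 := card_stab_two h2 hab
  have h5 := conj_le (a := a) (b := b) x
  rw [hx] at h5
  rw [card_compl, hn, hs] at h3
  rw [hn] at h4
  have hf : Fact (Nat.Prime 3) := ⟨Nat.prime_three⟩
  rcases hG with hG | hG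
  · have h6 : Nat.card ↥(stabilizer G a ⊓ stabilizer G b) = 60 := by omega
    have h7 := card_orderOf_le' (p := 3) (k := 1) (m := 20) (N := 20) h6 (by norm_num) (by
      intro c hc hc1
      have : c ≤ 20 := Nat.le_of_dvd (by norm_num) hc
      interval_cases c <;> omega)
    rw [h6] at h3
    have h8 : Nat.card ↥(centralizer ({x} : Set G)) *
      Nat.card {y : G // IsConj x y ∧ y • a = a ∧ y • b = b} ≤ 54 * 20 := Nat.mul_le_mul h1 (h5.trans h7)
    omega
  · have h6 : Nat.card ↥(stabilizer G a ⊓ stabilizer G b) = 720 := by omega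
    have h7 := card_orderOf_le' (p := 3) (k := 2) (m := 80) (N := 320) h6 (by norm_num) (by
      intro c hc hc1
      have : c ≤ 80 := Nat.le_of_dvd (by norm_num) hc
      interval_cases c <;> omega)
    rw [h6] at h3
    have h8 : Nat.card ↥(centralizer ({x} : Set G)) *
      Nat.card {y : G // IsConj x y ∧ y • a = a ∧ y • b = b} ≤ 54 * 320 := Nat.mul_le_mul h1 (h5.trans h7)
    omega

/-- **degree 15**: orders `2520` and `5040` -/
theorem no_fifteen [Finite G] (h2 : IsMultiplyPretransitive G Ω 2)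
    (hn : Fintype.card Ω = 15) (hG : Nat.card G = 2520 ∨ Nat.card G = 5040)
    {x : G} (hx : orderOf x = 3) (hs : #(mv Ω x) = 6) : False := by
  obtain ⟨a, b, hab⟩ : ∃ a b : Ω, a ≠ b := by
    have : Nontrivial Ω := Fintype.one_lt_card_iff_nontrivial.1 (by omega)
    exact exists_pair_ne Ω
  have h3 := cent_eq h2 hab x
  have h4 := card_stab_two h2 hab
  have h5 := conj_le (a := a) (b := b) x
  rw [hx] at h5
  rw [card_compl, hn, hs] at h3
  rw [hn] at h4
  have hf : Fact (Nat.Prime 3) := ⟨Nat.prime_three⟩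
  have hC : Nat.card ↥(centralizer ({x} : Set G)) ∣ Nat.card G := card_subgroup_dvd_card _
  set C := Nat.card ↥(centralizer ({x} : Set G)) with hCdef
  set M := Nat.card {y : G // IsConj x y ∧ y • a = a ∧ y • b = b} with hM
  rcases hG with hG | hG
  · have h6 : Nat.card ↥(stabilizer G a ⊓ stabilizer G b) = 12 := by omega
    have h7 := card_orderOf_le' (p := 3) (k := 1) (m := 4) (N := 8) h6 (by norm_num) (by
      intro c hc hc1
      have : c ≤ 4 := Nat.le_of_dvd (by norm_num) hc
      interval_cases c <;> omega)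
    rw [h6] at h3
    rw [hG] at hC
    have h8 : C ∣ Nat.gcd 864 2520 := Nat.dvd_gcd ⟨M, by omega⟩ hC
    have h9 : C ≤ 72 := Nat.le_of_dvd (by norm_num) h8
    have h10 : C * M ≤ 72 * 8 := Nat.mul_le_mul h9 (h5.trans h7)
    omega
  · have h6 : Nat.card ↥(stabilizer G a ⊓ stabilizer G b) = 24 := by omega
    have h7 := card_orderOf_le' (p := 3) (k := 1) (m := 8) (N := 8) h6 (by norm_num) (by
      intro c hc hc1
      have : c ≤ 8 := Nat.le_of_dvd (by norm_num) hc
      interval_cases c <;> omega)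
    rw [h6] at h3
    rw [hG] at hC
    have h8 : C ∣ Nat.gcd 1728 5040 := Nat.dvd_gcd ⟨M, by omega⟩ hC
    have h9 : C ≤ 144 := Nat.le_of_dvd (by norm_num) h8
    have h10 : C * M ≤ 144 * 8 := Nat.mul_le_mul h9 (h5.trans h7)
    omega

end Cfsg.Agent.H579.Pr
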